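/-
Normal form for square-zero linear maps: a square-zero map `N` of rank `ℓ` on an `n`-dimensional space has a basis
`w_i, N w_i, d_j` indexed by `Fin ℓ ⊕ Fin ℓ ⊕ Fin (n - 2ℓ)`.
-/
import Mathlib

set_option autoImplicit false

namespace Cfsg.Agent.Lib.Invol2.SquareZero

open Module

universe u v

variable {F : Type u} [Field F] {V : Type v} [AddCommGroup V] [Module F V] [FiniteDimensional F V]

/-- Index type of the normal form. -/
abbrev NFIdx (ℓ n : ℕ) : Type := Fin ℓ ⊕ Fin ℓ ⊕ Fin (n - 2 * ℓ)

theorem two_rank_le (N : V →ₗ[F] V) (hN : N ∘ₗ N = 0) :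
    2 * finrank F (LinearMap.range N) ≤ finrank F V := by
  have h1 := LinearMap.finrank_range_add_finrank_ker N
  have h2 : LinearMap.range N ≤ LinearMap.ker N := by
    rintro _ ⟨x, rfl⟩
    exact LinearMap.congr_fun hN x
  have h3 := Submodule.finrank_mono h2
  omega

/-- Normal form basis of a square-zero map. -/
theorem exists_basis (N : V →ₗ[F] V) (hN : N ∘ₗ N = 0) :
    ∃ b : Basis (NFIdx (finrank F (LinearMap.range N)) (finrank F V)) F V,
      (∀ i, N (b (Sum.inl i)) = b (Sum.inr (Sum.inl i))) ∧
      (∀ i, N (b (Sum.inr i)) = 0) := by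
  classical
  set ℓ := finrank F (LinearMap.range N) with hℓ
  set n := finrank F V with hn
  have hrk : LinearMap.range N ≤ LinearMap.ker N := by
    rintro _ ⟨x, rfl⟩
    exact LinearMap.congr_fun hN x
  have hle : 2 * ℓ ≤ n := two_rank_le N hN
  -- basis of the range
  let r : Basis (Fin ℓ) F (LinearMap.range N) := finBasis F _ |>.reindex (finCongr rfl)
  have hrlift : ∀ i, ∃ w, N w = (r i : V) := fun i => (r i).2
  choose w hw using hrlift
  -- complement of the range inside the kernel
  let R' : Submodule F (LinearMap.ker N) := (LinearMap.range N).comap (LinearMap.ker N).subtype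
  obtain ⟨D, hD⟩ := Submodule.exists_isCompl R'
  have hR'dim : finrank F R' = ℓ := by
    have : R' ≃ₗ[F] LinearMap.range N := by
      refine Submodule.comapSubtypeEquivOfLe hrk
    exact this.finrank_eq
  have hKdim : finrank F (LinearMap.ker N) + ℓ = n := by
    have := LinearMap.finrank_range_add_finrank_ker N
    omega
  have hDdim : finrank F D = n - 2 * ℓ := by
    have := Submodule.finrank_add_eq_of_isCompl hD
    omega
  let d : Basis (Fin (n - 2 * ℓ)) F D := (finBasis F D).reindex (finCongr hDdim)
  -- the family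
  let f : NFIdx ℓ n → V := Sum.elim w (Sum.elim (fun i => (r i : V)) (fun j => ((d j : LinearMap.ker N) : V)))
  have hf : LinearIndependent F f := by
    rw [Fintype.linearIndependent_iff]
    intro c hc
    rw [Fintype.sum_sum_type, Fintype.sum_sum_type] at hc
    simp only [f, Sum.elim_inl, Sum.elim_inr] at hc
    -- apply N
    have h1 := congrArg N hc
    simp only [map_add, map_sum, map_smul, hw, map_zero] at h1
    have h2 : ∀ i, N (r i : V) = 0 := fun i => hrk (r i).2
    have h3 : ∀ j, N ((d j : LinearMap.ker N) : V) = 0 := fun j => (d j : LinearMap.ker N).2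
    simp only [h2, h3, smul_zero, Finset.sum_const_zero, add_zero] at h1
    have ha : ∀ i, c (Sum.inl i) = 0 := by
      have h4 : ∑ i, c (Sum.inl i) • r i = 0 := by
        apply Subtype.ext
        simpa using h1
      exact (Fintype.linearIndependent_iff.mp r.linearIndependent) _ h4
    simp only [ha, zero_smul, Finset.sum_const_zero, zero_add] at hc
    -- now separate
    have hb0 : (∑ i, c (Sum.inr (Sum.inl i)) • (r i : V)) = - ∑ j, c (Sum.inr (Sum.inr j)) • ((d j : LinearMap.ker N) : V) :=
      eq_neg_of_add_eq_zero_left hc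
    let x : LinearMap.ker N := ∑ j, c (Sum.inr (Sum.inr j)) • (d j : LinearMap.ker N)
    have hxD : x ∈ D := Submodule.sum_mem _ (fun j _ => Submodule.smul_mem _ _ (d j).2)
    have hxval : (x : V) = ∑ j, c (Sum.inr (Sum.inr j)) • ((d j : LinearMap.ker N) : V) := by
      simp [x]
    have hxR : x ∈ R' := by
      show (x : V) ∈ LinearMap.range N
      rw [hxval]
      have : ∑ j, c (Sum.inr (Sum.inr j)) • ((d j : LinearMap.ker N) : V)
          = - ∑ i, c (Sum.inr (Sum.inl i)) • (r i : V) := by
        rw [hb0, neg_neg]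
      rw [this]
      exact Submodule.neg_mem _ (Submodule.sum_mem _ (fun i _ => Submodule.smul_mem _ _ (r i).2))
    have hx0 : x = 0 := by
      have : x ∈ R' ⊓ D := ⟨hxR, hxD⟩
      rw [hD.inf_eq_bot] at this
      simpa using this
    have hc3 : ∀ j, c (Sum.inr (Sum.inr j)) = 0 := by
      have h4 : ∑ j, c (Sum.inr (Sum.inr j)) • d j = 0 := by
        apply Subtype.ext
        apply Subtype.ext
        simpa [x, hxval] using congrArg (fun y : LinearMap.ker N => (y : V)) hx0
      exact (Fintype.linearIndependent_iff.mp d.linearIndependent) _ h4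
    have hc2 : ∀ i, c (Sum.inr (Sum.inl i)) = 0 := by
      have h4 : ∑ i, c (Sum.inr (Sum.inl i)) • r i = 0 := by
        apply Subtype.ext
        simp only [hc3, zero_smul, Finset.sum_const_zero, add_zero] at hc
        simpa using hc
      exact (Fintype.linearIndependent_iff.mp r.linearIndependent) _ h4
    rintro (i | i | j)
    · exact ha i
    · exact hc2 i
    · exact hc3 j
  have hcard : Fintype.card (NFIdx ℓ n) = n := by
    simp only [Fintype.card_sum, Fintype.card_fin]
    omega
  let b : Basis (NFIdx ℓ n) F V := Basis.mk hf (by rw [hf.span_eq_top_of_card_eq_finrank' hcard])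
  have hb : ∀ i, b i = f i := fun i => by simp [b]
  refine ⟨b, ?_, ?_⟩
  · intro i
    rw [hb, hb]
    simp [f, hw]
  · rintro (i | j)
    · rw [hb]
      simp only [f, Sum.elim_inr, Sum.elim_inl]
      exact hrk (r i).2
    · rw [hb]
      simpa [f] using (d j : LinearMap.ker N).2

/-- Two square-zero maps of the same rank are conjugate. -/
theorem exists_conj (N N' : V →ₗ[F] V) (hN : N ∘ₗ N = 0) (hN' : N' ∘ₗ N' = 0)
    (hr : finrank F (LinearMap.range N) = finrank F (LinearMap.range N')) :
    ∃ g : V ≃ₗ[F] V, ∀ v, g (N v) = N' (g v) := by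
  obtain ⟨b, hb1, hb2⟩ := exists_basis N hN
  obtain ⟨b', hb1', hb2'⟩ := exists_basis N' hN'
  -- reindex
  let e : NFIdx (finrank F (LinearMap.range N)) (finrank F V) ≃ NFIdx (finrank F (LinearMap.range N')) (finrank F V) :=
    Equiv.sumCongr (finCongr hr) (Equiv.sumCongr (finCongr hr) (finCongr (by rw [hr])))
  let g : V ≃ₗ[F] V := b.equiv b' e
  refine ⟨g, fun v => ?_⟩
  have hcomp : (g : V →ₗ[F] V) ∘ₗ N = N' ∘ₗ (g : V →ₗ[F] V) := by
    apply b.ext
    rintro (i | i)
    · simp only [LinearMap.comp_apply, LinearEquiv.coe_coe, hb1]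
      simp only [g, Basis.equiv_apply]
      simp only [e, Equiv.sumCongr_apply, Sum.map_inl, Sum.map_inr, finCongr_apply]
      rw [hb1']
    · simp only [LinearMap.comp_apply, LinearEquiv.coe_coe, hb2, map_zero]
      simp only [g, Basis.equiv_apply]
      simp only [e, Equiv.sumCongr_apply, Sum.map_inr]
      rw [hb2']
  exact LinearMap.congr_fun hcomp v

/-- The centralizer of a nonzero square-zero map contains elements whose determinant is any given square. -/
theorem exists_centralizer_det (N : V →ₗ[F] V) (hN : N ∘ₗ N = 0) (hne : N ≠ 0) (e : Fˣ) :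
    ∃ c : V ≃ₗ[F] V, (∀ v, c (N v) = N (c v)) ∧ LinearMap.det (c : V →ₗ[F] V) = (e : F) ^ 2 := by
  classical
  obtain ⟨b, hb1, hb2⟩ := exists_basis N hN
  have hpos : 0 < finrank F (LinearMap.range N) := by
    rw [Nat.pos_iff_ne_zero]
    intro h0
    apply hne
    rw [← LinearMap.range_eq_bot]
    exact Submodule.finrank_eq_zero.mp h0
  let i₀ : Fin (finrank F (LinearMap.range N)) := ⟨0, hpos⟩
  let d : NFIdx (finrank F (LinearMap.range N)) (finrank F V) → Fˣ :=
    Sum.elim (fun i => if i = i₀ then e else 1) (Sum.elim (fun i => if i = i₀ then e else 1) (fun _ => 1))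
  let c : V ≃ₗ[F] V := b.equiv (b.unitsSMul d) (Equiv.refl _)
  have hc : ∀ x, c (b x) = (d x : F) • b x := by
    intro x
    simp only [c, Basis.equiv_apply, Equiv.refl_apply, Basis.unitsSMul_apply]
    rfl
  refine ⟨c, ?_, ?_⟩
  · have hcomp : (c : V →ₗ[F] V) ∘ₗ N = N ∘ₗ (c : V →ₗ[F] V) := by
      apply b.ext
      rintro (i | i)
      · simp only [LinearMap.comp_apply, LinearEquiv.coe_coe, hb1, hc, map_smul]
        rfl
      · simp only [LinearMap.comp_apply, LinearEquiv.coe_coe, hb2, hc, map_smul, map_zero, smul_zero]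
    intro v
    exact LinearMap.congr_fun hcomp v
  · rw [← LinearMap.det_toMatrix b]
    have hm : LinearMap.toMatrix b b (c : V →ₗ[F] V) = Matrix.diagonal (fun x => (d x : F)) := by
      ext i j
      rw [LinearMap.toMatrix_apply]
      simp only [LinearEquiv.coe_coe, hc, map_smul, Basis.repr_self, Finsupp.smul_single,
        smul_eq_mul, mul_one, Matrix.diagonal_apply]
      by_cases hij : i = j
      · subst hij; simp
      · simp [hij, Finsupp.single_apply, Ne.symm hij]
    rw [hm, Matrix.det_diagonal, Fintype.prod_sum_type, Fintype.prod_sum_type]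
    simp only [d, Sum.elim_inl, Sum.elim_inr]
    have h1 : ∏ x : Fin (finrank F (LinearMap.range N)), (((if x = i₀ then e else 1 : Fˣ)) : F) = e := by
      simp only [apply_ite (fun u : Fˣ => (u : F)), Units.val_one]
      rw [Finset.prod_ite_eq']
      simp
    rw [h1]
    simp [pow_two]

end Cfsg.Agent.Lib.Invol2.SquareZero
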